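-- Team project JR (S3206), package [FODD] (helper31).
import Mathlib
import Cfsg.Agent.Lib.Helper35.JR.Defs
import Cfsg.Agent.Lib.Helper31.OutCount

set_option autoImplicit false

namespace Cfsg.Agent.Lib.Helper31.JR

open Cfsg.Agent.Lib.Helper35.JR

universe u

/-- An odd square is `1` modulo `8`. -/
theorem eight_dvd_odd_sq_sub_one (x : ℕ) (hx : Odd x) : 8 ∣ x ^ 2 - 1 := by
  obtain ⟨j, hj⟩ := hx
  obtain ⟨t, ht⟩ := Nat.even_mul_succ_self j
  have h : x ^ 2 = 4 * (j * (j + 1)) + 1 := by rw [hj]; ring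
  have h2 : x ^ 2 - 1 = 4 * (j * (j + 1)) := by omega
  rw [h2, ht]
  exact ⟨t, by ring⟩

/-- In a finite field whose order is `1` modulo `8`, `PSL₂` has an element of order `4`. -/
theorem exists_psl_sq_ne_one (F : Type u) [Field F] [Fintype F]
    (h8 : 8 ∣ Fintype.card F - 1) :
    ∃ g : Matrix.ProjectiveSpecialLinearGroup (Fin 2) F, g ^ 4 = 1 ∧ g ^ 2 ≠ 1 := by
  classical
  obtain ⟨g0, hg0⟩ := IsCyclic.exists_ofOrder_eq_natCard (α := Fˣ)
  have hN : Nat.card Fˣ = Fintype.card F - 1 := by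
    rw [Nat.card_eq_fintype_card, Fintype.card_units]
  obtain ⟨c, hc⟩ := h8
  have hNpos : Nat.card Fˣ ≠ 0 := Nat.card_pos.ne'
  have hc0 : c ≠ 0 := by
    rintro rfl
    rw [hN, hc] at hNpos
    simp at hNpos
  have hu : orderOf (g0 ^ c) = 8 := by
    rw [orderOf_pow_of_dvd hc0 (by rw [hg0, hN, hc]; exact Dvd.intro_left 8 rfl), hg0, hN, hc]
    exact Nat.mul_div_cancel _ (Nat.pos_of_ne_zero hc0)
  set u : Fˣ := g0 ^ c with hudef
  set a : F := (u : F) with hadef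
  have ha0 : a ≠ 0 := u.ne_zero
  have ha8 : a ^ 8 = 1 := by
    have h1 : u ^ 8 = 1 := by rw [← hu]; exact pow_orderOf_eq_one u
    have h2 := congrArg Units.val h1
    simpa using h2
  have ha4 : a ^ 4 ≠ 1 := by
    intro h
    have h1 : u ^ 4 = 1 := by
      apply Units.ext
      simpa using h
    have h2 := orderOf_dvd_of_pow_eq_one h1
    rw [hu] at h2
    omega
  have ha4' : a ^ 4 = -1 := by
    have h1 : (a ^ 4 - 1) * (a ^ 4 + 1) = 0 := by
      have : (a ^ 4 - 1) * (a ^ 4 + 1) = a ^ 8 - 1 := by ring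
      rw [this, ha8, sub_self]
    rcases mul_eq_zero.mp h1 with h | h
    · exact absurd (sub_eq_zero.mp h) ha4
    · exact eq_neg_of_add_eq_zero_left h
  let s : Matrix.SpecialLinearGroup (Fin 2) F :=
    ⟨!![a, 0; 0, a⁻¹], by
      rw [Matrix.det_fin_two_of]
      simp [ha0]⟩
  have hs2 : ((s ^ 2 : Matrix.SpecialLinearGroup (Fin 2) F) : Matrix (Fin 2) (Fin 2) F) =
      !![a ^ 2, 0; 0, (a⁻¹) ^ 2] := by
    rw [Matrix.SpecialLinearGroup.coe_pow]
    show (!![a, 0; 0, a⁻¹] : Matrix (Fin 2) (Fin 2) F) ^ 2 = _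
    rw [pow_two, Matrix.mul_fin_two]
    simp [pow_two]
  have hs4 : ((s ^ 4 : Matrix.SpecialLinearGroup (Fin 2) F) : Matrix (Fin 2) (Fin 2) F) =
      !![a ^ 4, 0; 0, (a⁻¹) ^ 4] := by
    have e : (s ^ 4 : Matrix.SpecialLinearGroup (Fin 2) F) = s ^ 2 * s ^ 2 := by
      rw [← pow_add]
    rw [e, Matrix.SpecialLinearGroup.coe_mul, hs2, Matrix.mul_fin_two]
    congr 1
    ext i j
    fin_cases i <;> fin_cases j <;> simp <;> ring
  refine ⟨(QuotientGroup.mk s : Matrix.ProjectiveSpecialLinearGroup (Fin 2) F), ?_, ?_⟩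
  · rw [← QuotientGroup.mk_pow]
    apply (QuotientGroup.eq_one_iff _).mpr
    rw [Matrix.SpecialLinearGroup.mem_center_iff]
    refine ⟨-1, by simp, ?_⟩
    rw [hs4, ha4']
    have hinv : (a⁻¹) ^ 4 = -1 := by
      rw [inv_pow, ha4']
      norm_num
    rw [hinv]
    ext i j
    fin_cases i <;> fin_cases j <;> simp [Matrix.scalar_apply, Matrix.diagonal]
  · intro h
    rw [← QuotientGroup.mk_pow] at h
    have h1 := (QuotientGroup.eq_one_iff _).mp h
    rw [Matrix.SpecialLinearGroup.mem_center_iff] at h1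
    obtain ⟨r, -, hr⟩ := h1
    rw [hs2] at hr
    have e00 := congrFun (congrFun hr 0) 0
    have e11 := congrFun (congrFun hr 1) 1
    simp [Matrix.scalar_apply, Matrix.diagonal] at e00 e11
    apply ha4
    have h3 : a ^ 2 = (a ^ 2)⁻¹ := by
      have h31 : (a ^ 2)⁻¹ = r := by simpa using e11.symm
      have h30 : a ^ 2 = r := by simpa using e00.symm
      rw [h31, h30]
    have h2 : a ^ 4 = a ^ 2 * a ^ 2 := by ring
    rw [h2]
    nth_rewrite 2 [h3]
    exact mul_inv_cancel₀ (pow_ne_zero 2 ha0)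

/-- [FODD] -/
theorem pkgFodd : PkgFodd.{u} := by
  intro F _ _ hodd hP σ k hσ
  classical
  obtain ⟨p, hp⟩ := CharP.exists F
  have : Fact p.Prime := ⟨CharP.char_is_prime F p⟩
  obtain ⟨n, -, hn⟩ := FiniteField.card F p
  have hAut : Nat.card (F ≃+* F) = (n : ℕ) := card_ringAut_of_card p (n : ℕ) hn
  have hpodd : Odd p := by
    rw [hn] at hodd
    exact (Nat.odd_pow_iff n.ne_zero).mp hodd
  have hfodd : Odd (n : ℕ) := by
    by_contra hne
    rw [Nat.not_odd_iff_even] at hne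
    obtain ⟨m, hm⟩ := hne
    have h8 : 8 ∣ Fintype.card F - 1 := by
      rw [hn, hm, ← two_mul, mul_comm, pow_mul]
      exact eight_dvd_odd_sq_sub_one _ hpodd.pow
    obtain ⟨g, hg4, hg2⟩ := exists_psl_sq_ne_one F h8
    have hpg : IsPGroup 2 (Subgroup.zpowers g) := by
      rintro ⟨x, hx⟩
      obtain ⟨i, rfl⟩ := Subgroup.mem_zpowers_iff.mp hx
      refine ⟨2, ?_⟩
      apply Subtype.ext
      show (g ^ i) ^ 2 ^ 2 = 1
      rw [← zpow_natCast, ← zpow_mul, mul_comm, zpow_mul, zpow_natCast]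
      norm_num [hg4]
    obtain ⟨Q, hQ⟩ := hpg.exists_le_sylow
    exact hg2 (hP Q g (hQ (Subgroup.mem_zpowers g)))
  have h1 : orderOf σ ∣ 2 ^ k := orderOf_dvd_of_pow_eq_one hσ
  have h2 : orderOf σ ∣ (n : ℕ) := by
    have := orderOf_dvd_natCard σ
    rwa [show Nat.card (RingAut F) = (n : ℕ) from hAut] at this
  have hcop : Nat.Coprime (2 ^ k) (n : ℕ) :=
    Nat.Coprime.pow_left k (Nat.coprime_two_left.mpr hfodd)
  have h3 : orderOf σ = 1 := Nat.eq_one_of_dvd_coprimes hcop h1 h2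
  exact orderOf_eq_one_iff.mp h3

end Cfsg.Agent.Lib.Helper31.JR
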